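import Mathlib.AlgebraicGeometry.Morphisms.Separated
import Mathlib.AlgebraicGeometry.Morphisms.FinitePresentation
import Mathlib.AlgebraicGeometry.Morphisms.FiniteType
import Mathlib.AlgebraicGeometry.Morphisms.UniversallyOpen
import Mathlib.AlgebraicGeometry.AffineScheme
import Mathlib.AlgebraicGeometry.PullbackCarrier

/-!
# The closure of the graph of a rational map after a universally open base change

Let `h : U ⟶ Y` be an `S`-morphism on an open subset `U` of an `S`-scheme `X`, with `Y` separated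
over `S`, and let `f : X' ⟶ X` be universally open. If `h ∘ f` extends to a neighbourhood of
`x'`, then the fibre over `f x'` of the closure of the graph of `h` is a single point.
-/

set_option autoImplicit false
universe u
open CategoryTheory CategoryTheory.Limits AlgebraicGeometry TopologicalSpace

namespace Groth.Agent.Ega4late.H531.GraphFibre

variable {X X' Y S : Scheme.{u}} (pX : X ⟶ S) (pY : Y ⟶ S)

/-- The easy direction: pulling back an extension. -/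
theorem exists_pullback (U : X.Opens) (h : (U : Scheme.{u}) ⟶ Y) (f : X' ⟶ X) (x' : X')
    (H : ∃ (V : X.Opens) (v : (V : Scheme.{u}) ⟶ Y), f x' ∈ V ∧ v ≫ pY = V.ι ≫ pX ∧
        X.homOfLE (inf_le_right : U ⊓ V ≤ V) ≫ v = X.homOfLE (inf_le_left : U ⊓ V ≤ U) ≫ h) :
    ∃ (V' : X'.Opens) (v' : (V' : Scheme.{u}) ⟶ Y), x' ∈ V' ∧ v' ≫ pY = V'.ι ≫ f ≫ pX ∧
        X'.homOfLE (inf_le_right : f ⁻¹ᵁ U ⊓ V' ≤ V') ≫ v' =
          X'.homOfLE (inf_le_left : f ⁻¹ᵁ U ⊓ V' ≤ f ⁻¹ᵁ U) ≫ (f ∣_ U) ≫ h := by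
  obtain ⟨V, v, hxV, hv, hvU⟩ := H
  refine ⟨f ⁻¹ᵁ V, (f ∣_ V) ≫ v, hxV, ?_, ?_⟩
  · rw [Category.assoc, hv, morphismRestrict_ι_assoc]
  · have hrange : Set.range ((f ⁻¹ᵁ U ⊓ f ⁻¹ᵁ V).ι ≫ f) ⊆ Set.range (U ⊓ V).ι := by
      rw [Scheme.Opens.range_ι]
      rintro _ ⟨s, rfl⟩
      rw [Scheme.Hom.comp_apply]
      exact s.2
    let k : ((f ⁻¹ᵁ U ⊓ f ⁻¹ᵁ V : X'.Opens) : Scheme.{u}) ⟶ (U ⊓ V : X.Opens) :=
      IsOpenImmersion.lift (U ⊓ V).ι ((f ⁻¹ᵁ U ⊓ f ⁻¹ᵁ V).ι ≫ f) hrange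
    have hk : k ≫ (U ⊓ V).ι = (f ⁻¹ᵁ U ⊓ f ⁻¹ᵁ V).ι ≫ f := IsOpenImmersion.lift_fac _ _ _
    have h1 : X'.homOfLE (inf_le_right : f ⁻¹ᵁ U ⊓ f ⁻¹ᵁ V ≤ f ⁻¹ᵁ V) ≫ (f ∣_ V) =
        k ≫ X.homOfLE inf_le_right := by
      rw [← cancel_mono V.ι, Category.assoc, morphismRestrict_ι, Scheme.homOfLE_ι_assoc,
        Category.assoc, Scheme.homOfLE_ι, hk]
    have h2 : X'.homOfLE (inf_le_left : f ⁻¹ᵁ U ⊓ f ⁻¹ᵁ V ≤ f ⁻¹ᵁ U) ≫ (f ∣_ U) =
        k ≫ X.homOfLE inf_le_left := by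
      rw [← cancel_mono U.ι, Category.assoc, morphismRestrict_ι, Scheme.homOfLE_ι_assoc,
        Category.assoc, Scheme.homOfLE_ι, hk]
    rw [reassoc_of% h1, reassoc_of% h2, hvU]

/-- The point `(f x', v' x')` of `X ×_S Y` is the only point over `f x'` of the closure of the
graph of `h`. -/
theorem closure_inter_fibre [IsSeparated pY] (U : X.Opens) (hU : Dense (U : Set ↥X))
    (h : (U : Scheme.{u}) ⟶ Y) (hh : U.ι ≫ pX = h ≫ pY)
    (f : X' ⟶ X) [UniversallyOpen f] (x' : X')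
    (V' : X'.Opens) (v' : (V' : Scheme.{u}) ⟶ Y) (hx' : x' ∈ V') (hv' : v' ≫ pY = V'.ι ≫ f ≫ pX)
    (hv'U : X'.homOfLE (inf_le_right : f ⁻¹ᵁ U ⊓ V' ≤ V') ≫ v' =
          X'.homOfLE (inf_le_left : f ⁻¹ᵁ U ⊓ V' ≤ f ⁻¹ᵁ U) ≫ (f ∣_ U) ≫ h) :
    ∃ z : ↥(pullback pX pY), pullback.fst pX pY z = f x' ∧
      closure (Set.range (pullback.lift U.ι h hh)) ∩ (pullback.fst pX pY) ⁻¹' {f x'} = {z} := by
  let g : (V' : Scheme.{u}) ⟶ pullback pX pY := pullback.lift (V'.ι ≫ f) v' (by simpa using hv'.symm)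
  have hg1 : g ≫ pullback.fst pX pY = V'.ι ≫ f := pullback.lift_fst _ _ _
  have hg2 : g ≫ pullback.snd pX pY = v' := pullback.lift_snd _ _ _
  let Γ : (U : Scheme.{u}) ⟶ pullback pX pY := pullback.lift U.ι h hh
  have hΓ1 : Γ ≫ pullback.fst pX pY = U.ι := pullback.lift_fst _ _ _
  have hΓ2 : Γ ≫ pullback.snd pX pY = h := pullback.lift_snd _ _ _
  -- the restriction of `g` to `f ⁻¹ U ∩ V'`
  have hgU : X'.homOfLE (inf_le_right : f ⁻¹ᵁ U ⊓ V' ≤ V') ≫ g =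
      X'.homOfLE (inf_le_left : f ⁻¹ᵁ U ⊓ V' ≤ f ⁻¹ᵁ U) ≫ (f ∣_ U) ≫ Γ := by
    apply pullback.hom_ext
    · simp only [Category.assoc, hg1, hΓ1, Scheme.homOfLE_ι_assoc, morphismRestrict_ι]
    · simp only [Category.assoc, hg2, hΓ2, hv'U]
  have hgx : pullback.fst pX pY (g ⟨x', hx'⟩) = f x' := by
    rw [← Scheme.Hom.comp_apply, hg1]; rfl
  refine ⟨g ⟨x', hx'⟩, hgx, ?_⟩
  apply Set.eq_singleton_iff_unique_mem.mpr
  refine ⟨⟨?_, hgx⟩, ?_⟩
  · -- the point lies in the closure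
    have hdense : Dense ((f ⁻¹ᵁ U : X'.Opens) : Set ↥X') := hU.preimage f.isOpenMap
    have h1 : (⟨x', hx'⟩ : ↥V') ∈ closure (V'.ι ⁻¹' ((f ⁻¹ᵁ U : X'.Opens) : Set ↥X')) :=
      (hdense.preimage V'.ι.isOpenMap) _
    have h2 : g ⟨x', hx'⟩ ∈ closure (g '' (V'.ι ⁻¹' ((f ⁻¹ᵁ U : X'.Opens) : Set ↥X'))) :=
      image_closure_subset_closure_image g.continuous ⟨_, h1, rfl⟩
    refine closure_mono ?_ h2
    rintro _ ⟨w, hw, rfl⟩
    have hw' : w.1 ∈ f ⁻¹ᵁ U ⊓ V' := ⟨hw, w.2⟩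
    have h3 : g w = (X'.homOfLE (inf_le_right : f ⁻¹ᵁ U ⊓ V' ≤ V') ≫ g) ⟨w.1, hw'⟩ := by
      rw [Scheme.Hom.comp_apply]
      congr 1
      apply V'.ι.isOpenEmbedding.injective
      rw [← Scheme.Hom.comp_apply, Scheme.homOfLE_ι]
      rfl
    rw [h3, hgU]
    exact ⟨_, rfl⟩
  · rintro c ⟨hc, hcx⟩
    let P := pullback (V'.ι ≫ f) (pullback.fst pX pY)
    let π : P ⟶ pullback pX pY := pullback.snd _ _
    let ρ : P ⟶ V' := pullback.fst _ _
    have hπρ : π ≫ pullback.fst pX pY = ρ ≫ V'.ι ≫ f := pullback.condition.symm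
    have hπo : UniversallyOpen π := inferInstance
    have hρs : IsSeparated ρ := inferInstance
    obtain ⟨c', hc'1, hc'2⟩ := Scheme.Pullback.exists_preimage_pullback (f := V'.ι ≫ f)
      (g := pullback.fst pX pY) ⟨x', hx'⟩ c (by rw [Scheme.Hom.comp_apply]; exact (Set.mem_singleton_iff.mp hcx).symm)
    let gr : (V' : Scheme.{u}) ⟶ P := pullback.lift (𝟙 _) g (by rw [Category.id_comp, hg1])
    have hgr1 : gr ≫ ρ = 𝟙 _ := pullback.lift_fst _ _ _
    have hgr2 : gr ≫ π = g := pullback.lift_snd _ _ _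
    have hgrc : IsClosedImmersion gr := by
      have : IsClosedImmersion (gr ≫ ρ) := by rw [hgr1]; infer_instance
      exact IsClosedImmersion.of_comp gr ρ
    have key : π ⁻¹' (Set.range Γ) ⊆ Set.range gr := by
      intro q hq
      rw [← Scheme.Pullback.range_snd] at hq
      obtain ⟨t, rfl⟩ := hq
      let t1 : pullback Γ π ⟶ U := pullback.fst _ _
      let t2 : pullback Γ π ⟶ P := pullback.snd _ _
      have ht : t1 ≫ Γ = t2 ≫ π := pullback.condition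
      let a : pullback Γ π ⟶ V' := t2 ≫ ρ
      have ha : a ≫ V'.ι ≫ f = t1 ≫ U.ι := by
        rw [← hΓ1, reassoc_of% ht, hπρ, Category.assoc]
      have hrange : Set.range (a ≫ V'.ι) ⊆ Set.range (f ⁻¹ᵁ U ⊓ V').ι := by
        rw [Scheme.Opens.range_ι]
        rintro _ ⟨s, rfl⟩
        refine ⟨?_, ?_⟩
        · change f ((a ≫ V'.ι) s) ∈ U
          have : f ((a ≫ V'.ι) s) = U.ι (t1 s) := by
            rw [← Scheme.Hom.comp_apply, ← Scheme.Hom.comp_apply, Category.assoc, ha]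
          rw [this]
          exact (t1 s).2
        · rw [Scheme.Hom.comp_apply]
          exact (a s).2
      let a' : pullback Γ π ⟶ (f ⁻¹ᵁ U ⊓ V' : X'.Opens) := IsOpenImmersion.lift (f ⁻¹ᵁ U ⊓ V').ι (a ≫ V'.ι) hrange
      have ha'0 : a' ≫ (f ⁻¹ᵁ U ⊓ V').ι = a ≫ V'.ι := IsOpenImmersion.lift_fac _ _ _
      have ha'1 : a' ≫ X'.homOfLE (inf_le_right : f ⁻¹ᵁ U ⊓ V' ≤ V') = a := by
        rw [← cancel_mono V'.ι, Category.assoc, Scheme.homOfLE_ι, ha'0]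
      have ha'2 : a' ≫ X'.homOfLE (inf_le_left : f ⁻¹ᵁ U ⊓ V' ≤ f ⁻¹ᵁ U) ≫ (f ∣_ U) = t1 := by
        rw [← cancel_mono U.ι]
        simp only [Category.assoc, morphismRestrict_ι, Scheme.homOfLE_ι_assoc]
        rw [reassoc_of% ha'0, ha]
      have hag : a ≫ g = t2 ≫ π := by
        rw [← ha'1, Category.assoc, hgU, ← ht, ← ha'2]
        simp only [Category.assoc]
      have ht2 : t2 = a ≫ gr := by
        apply pullback.hom_ext
        · change t2 ≫ ρ = (a ≫ gr) ≫ ρ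
          rw [Category.assoc, hgr1, Category.comp_id]
        · change t2 ≫ π = (a ≫ gr) ≫ π
          rw [Category.assoc, hgr2, hag]
      change t2 t ∈ _
      rw [ht2, Scheme.Hom.comp_apply]
      exact ⟨_, rfl⟩
    have hc'3 : c' ∈ closure (π ⁻¹' (Set.range Γ)) := by
      rw [← π.isOpenMap.preimage_closure_eq_closure_preimage π.continuous]
      change π c' ∈ closure (Set.range Γ)
      rw [show π c' = c from hc'2]
      exact hc
    have hc'4 : c' ∈ Set.range gr := by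
      have h1 := closure_mono key hc'3
      rwa [gr.isClosedEmbedding.isClosed_range.closure_eq] at h1
    obtain ⟨w, rfl⟩ := hc'4
    have hw : w = ⟨x', hx'⟩ := by
      rw [← hc'1]
      change w = ρ (gr w)
      rw [← Scheme.Hom.comp_apply, hgr1]
      rfl
    rw [← hc'2]
    change π (gr w) = _
    rw [← Scheme.Hom.comp_apply, hgr2, hw]

end Groth.Agent.Ega4late.H531.GraphFibre
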